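import Cfsg.Agent.H849.OZ.TFive

/-!
# S4842: degrees smaller than an isolated prime (helper245)

`z` of prime order `p ≥ 7`, `p ∥ |G|`, `|C(z)| = p`, `χ` with exactly one class of zeros (the class of `x`).

* `iso_val` : `χ (z ^ i) = ε = ± 1` for all `z ^ i ≠ 1`;
* `apply_eq_zero` : if the sum of `χ` over `⟨z⟩` vanishes, then `χ g = 0` for all `g` with `g z g⁻¹ = z ^ k ≠ z`;
* `deg_ne` : the degree `p - 1` is impossible if `N(⟨z⟩)` contains non conjugate elements `g`, `g'` outside `C(z)`.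
-/

set_option autoImplicit false
set_option linter.unusedSectionVars false

namespace Cfsg.Agent.H245.OZ

open Cfsg Subgroup
open Cfsg.Agent.Characters.Core Cfsg.Agent.Characters.Linear
open Cfsg.Agent.SmallSimple.ThetaSetup Cfsg.Agent.SmallSimple.ThetaOrtho Cfsg.Agent.SmallSimple.ThetaCount
open Cfsg.Agent.SmallSimple.TheoremC Cfsg.Agent.SmallSimple.TheoremCCor
open Cfsg.Agent.H732.VZ (One)
open Cfsg.Agent.H849.OZ

universe u

variable {G : Type u} [Group G] [Finite G]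

/-- an idempotent up to a scalar, of trace zero, vanishes -/
theorem eq_zero_of_trace {V : Type*} [AddCommGroup V] [Module ℂ V] [FiniteDimensional ℂ V] {T : V →ₗ[ℂ] V} {p : ℂ}
    (hp : p ≠ 0) (hT : T * T = p • T) (h0 : LinearMap.trace ℂ V T = 0) : T = 0 := by
  have h1 : IsIdempotentElem (p⁻¹ • T) := by
    unfold IsIdempotentElem
    rw [smul_mul_smul_comm, hT, smul_smul]
    congr 1
    field_simp
  have h2 := (LinearMap.IsIdempotentElem.isProj_range _ h1).trace
  rw [map_smul, h0, smul_zero] at h2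
  have h3 : Module.finrank ℂ (LinearMap.range (p⁻¹ • T)) = 0 := by exact_mod_cast h2.symm
  rw [Submodule.finrank_eq_zero, LinearMap.range_eq_bot] at h3
  rcases smul_eq_zero.1 h3 with h4 | h4
  · exact absurd h4 (inv_ne_zero hp)
  · exact h4

/-- the values at the elements normalising `⟨z⟩` -/
theorem apply_eq_zero (χ : IrrCharacter G) {z g : G} {p k : ℕ} (hp : p.Prime) (hz : orderOf z = p)
    (hg : g * z * g⁻¹ = z ^ k) (hk : ¬ k ≡ 1 [MOD p]) (h0 : ∑ i ∈ Finset.range p, (χ : G → ℂ) (z ^ i) = 0) :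
    (χ : G → ℂ) g = 0 := by
  classical
  have hF : Fact p.Prime := ⟨hp⟩
  have hcf := isIrr_isClassFunction χ.2
  obtain ⟨n, ρ, hρ, hχ⟩ := χ.2
  obtain ⟨T, hT⟩ : ∃ T, T = ∑ i ∈ Finset.range p, ρ (z ^ i) := ⟨_, rfl⟩
  have hzT : ρ z * T = T := by
    rw [hT, Finset.mul_sum]
    have h1 : ∀ i ∈ Finset.range p, ρ z * ρ (z ^ i) = ρ (z ^ (i + 1)) := fun i _ => by rw [← map_mul, pow_succ']
    rw [Finset.sum_congr rfl h1]
    have h2 := Finset.sum_range_succ (fun i => ρ (z ^ i)) p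
    have h3 := Finset.sum_range_succ' (fun i => ρ (z ^ i)) p
    have h4 : z ^ p = 1 := by rw [← hz, pow_orderOf_eq_one]
    rw [h2, h4, pow_zero] at h3
    exact (add_right_cancel h3).symm
  have hzTi : ∀ i : ℕ, ρ (z ^ i) * T = T := by
    intro i
    induction i with
    | zero => rw [pow_zero, map_one, one_mul]
    | succ i ih => rw [pow_succ, map_mul, mul_assoc, hzT, ih]
  have hTT : T * T = (p : ℂ) • T := by
    conv_lhs => rw [hT, Finset.sum_mul]
    rw [← hT, Finset.sum_congr rfl fun i _ => hzTi i, Finset.sum_const, Finset.card_range, Nat.cast_smul_eq_nsmul]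
  have htr : LinearMap.trace ℂ _ T = 0 := by
    rw [hT, map_sum, ← h0, ← hχ]
    rfl
  have hT0 := eq_zero_of_trace (by exact_mod_cast hp.ne_zero) hTT htr
  -- the translates
  have hconj : ∀ i : ℕ, (χ : G → ℂ) (z ^ i * g) = (χ : G → ℂ) g := by
    intro i
    have hk1 : (1 - k : ZMod p) ≠ 0 := by
      intro h1
      apply hk
      rw [← ZMod.natCast_eq_natCast_iff, Nat.cast_one]
      exact (sub_eq_zero.1 h1).symm
    obtain ⟨j, hj⟩ : ∃ j : ℕ, (j : ZMod p) = (i : ZMod p) * (1 - k : ZMod p)⁻¹ :=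
      ⟨((i : ZMod p) * (1 - k : ZMod p)⁻¹).val, ZMod.natCast_zmod_val _⟩
    have h1 : z ^ j = z ^ (i + k * j) := by
      rw [pow_eq_pow_iff_modEq, hz, ← ZMod.natCast_eq_natCast_iff]
      push_cast
      have h2 : (i : ZMod p) = j * (1 - k) := by rw [hj, mul_assoc, inv_mul_cancel₀ hk1, mul_one]
      rw [h2]
      ring
    have h2 : g * (z ^ j) * g⁻¹ = z ^ (k * j) := by rw [← conj_pow, hg, pow_mul]
    have h3 : g * (z ^ j)⁻¹ = (z ^ (k * j))⁻¹ * g := by
      rw [← h2]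
      group
    have h4 : z ^ j * g * (z ^ j)⁻¹ = z ^ i * g := by
      rw [mul_assoc, h3, ← mul_assoc]
      congr 1
      rw [h1, pow_add, mul_inv_cancel_right]
    rw [← h4]
    exact hcf g (z ^ j)
  have h1 : ∑ i ∈ Finset.range p, (χ : G → ℂ) (z ^ i * g) = 0 := by
    have h2 : ∑ i ∈ Finset.range p, (χ : G → ℂ) (z ^ i * g) = LinearMap.trace ℂ _ (T * ρ g) := by
      rw [hT, Finset.sum_mul, map_sum, ← hχ]
      refine Finset.sum_congr rfl fun i _ => ?_
      rw [← map_mul]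
      rfl
    rw [h2, hT0, zero_mul, map_zero]
  rw [Finset.sum_congr rfl fun i _ => hconj i, Finset.sum_const, Finset.card_range, nsmul_eq_mul] at h1
  exact (mul_eq_zero.1 h1).resolve_left (by exact_mod_cast hp.ne_zero)

/-- **The values at the elements of an isolated prime order.** -/
theorem iso_val [IsSimpleGroup G] {p : ℕ} (hp : p.Prime) (h7 : 7 ≤ p) (hsq : ¬ p ^ 2 ∣ Nat.card G)
    (hG : Nat.card G ≠ p) {z : G} (hz : orderOf z = p)
    (hC : Nat.card (centralizer ({z} : Set G)) = p) {χ : IrrCharacter G} {x : G} (h : One χ x)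
    (h4 : 4 ≤ Nat.card (centralizer ({x} : Set G))) (hx : ¬ p ∣ orderOf x) :
    ∃ ε : ℤ, (ε = 1 ∨ ε = -1) ∧ (∀ i : ℕ, ¬ p ∣ i → (χ : G → ℂ) (z ^ i) = ε) ∧
      ∃ k : ℤ, (charDegree (χ : G → ℂ) : ℤ) = ε + p * k := by
  classical
  have hF : Fact p.Prime := ⟨hp⟩
  obtain ⟨P, hPz, hP⟩ := exists_sylow hp hsq hz
  obtain ⟨K, hK⟩ := exists_isComp P hP
  have hzP : z ∈ (P : Subgroup G) := by rw [hPz]; exact mem_zpowers z
  have hz1 : z ≠ 1 := by
    rintro rfl
    rw [orderOf_one] at hz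
    exact hp.one_lt.ne hz
  have hK1 : Nat.card K = 1 := by
    have h1 := Cfsg.Agent.H849.OZ.card_centralizer hK hP
    rw [← Blocks.CyclicOrtho.centralizer_eq P hP hzP hz1, hC] at h1
    have h2 := hp.pos
    nlinarith
  have hsub : Subsingleton K := (Nat.card_eq_one_iff_unique.1 hK1).1
  have hd : p ∣ Nat.card G := hz ▸ _root_.orderOf_dvd_natCard z
  have hw2 := normalizer_ne hd hG (P := P) rfl
  obtain ⟨θ, ε, hε, hval, ⟨k, hk⟩, hc⟩ := five hK hP h hx rfl (fun e t het ht he => arith h4 h7 hw2 het ht he)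
  have h1 : orb P K (θ : K → ℂ) = {θ} := by
    have hmem : θ ∈ orb P K (θ : K → ℂ) := mem_orb.2 ⟨1, one_mem _, tw_one _⟩
    have h2 := card_orb_of_conj hK (fun y y' _ => by rw [Subsingleton.elim y y']) θ
    exact Finset.eq_singleton_iff_unique_mem.2 ⟨hmem, fun θ' hθ' => Finset.card_le_one.1 h2 _ hθ' _ hmem⟩
  have h3 : (θ : K → ℂ) 1 = 1 := by
    refine deg_one_of_no_zero θ fun a ha => ?_
    rw [Subsingleton.elim a 1, ← Cfsg.Agent.H686.CharKit.charDegree_irr θ] at ha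
    exact (Cfsg.Agent.H604.OZ.deg_pos θ).ne' (by exact_mod_cast ha)
  refine ⟨ε, hε, fun i hi => ?_, k, ?_⟩
  · have h5 : z ^ i ∈ (P : Subgroup G) := Subgroup.pow_mem _ hzP i
    have h6 : z ^ i ≠ 1 := by
      intro h6
      exact hi (hz ▸ orderOf_dvd_of_pow_eq_one h6)
    have h7 := hval _ h5 h6 1
    rw [OneMemClass.coe_one, mul_one, h1, Finset.sum_singleton, h3, mul_one] at h7
    exact h7
  · rw [h1, Finset.sum_singleton, h3, mul_one] at hk
    have h8 := Cfsg.Agent.H686.CharKit.charDegree_irr χ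
    rw [hk] at h8
    exact_mod_cast h8

/-- **The degree `p - 1`**, `p` an isolated prime: it is impossible if two non conjugate elements act nontrivially
on `⟨z⟩`. -/
theorem deg_ne [IsSimpleGroup G] {p : ℕ} (hp : p.Prime) (h7 : 7 ≤ p) (hsq : ¬ p ^ 2 ∣ Nat.card G)
    (hG : Nat.card G ≠ p) {z : G} (hz : orderOf z = p)
    (hC : Nat.card (centralizer ({z} : Set G)) = p) {χ : IrrCharacter G} {x : G} (h : One χ x)
    (h4 : 4 ≤ Nat.card (centralizer ({x} : Set G))) {g g' : G} {k k' : ℕ} (hg : g * z * g⁻¹ = z ^ k)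
    (hk : ¬ k ≡ 1 [MOD p]) (hg' : g' * z * g'⁻¹ = z ^ k') (hk' : ¬ k' ≡ 1 [MOD p]) (hgg : ¬ IsConj g g') :
    charDegree (χ : G → ℂ) + 1 ≠ p := by
  intro hdeg
  have hx : ¬ p ∣ orderOf x := by
    intro hx
    have h1 := (iso_sing hp hsq hz hC h hx).1
    have h2 := Cfsg.Agent.H604.OZ.deg_pos χ
    have h3 := Nat.le_of_dvd h2 h1
    omega
  obtain ⟨ε, hε, hval, k₀, hk₀⟩ := iso_val hp h7 hsq hG hz hC h h4 hx
  have hε1 : ε = -1 := by
    rcases hε with rfl | rfl
    · exfalso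
      have h1 : (p : ℤ) ∣ 2 := by
        refine ⟨1 - k₀, ?_⟩
        have h2 : ((charDegree (χ : G → ℂ) : ℤ)) + 1 = p := by exact_mod_cast hdeg
        linarith
      have h2 := Int.le_of_dvd (by norm_num) h1
      have h3 : (7 : ℤ) ≤ p := by exact_mod_cast h7
      linarith
    · rfl
  have h0 : ∑ i ∈ Finset.range p, (χ : G → ℂ) (z ^ i) = 0 := by
    obtain ⟨m, rfl⟩ : ∃ m, p = m + 1 := ⟨p - 1, by omega⟩
    rw [Finset.sum_range_succ', pow_zero]
    rw [Finset.sum_congr rfl (g := fun _ => (-1 : ℂ)) fun i hi => ?_]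
    · rw [Finset.sum_const, Finset.card_range, nsmul_eq_mul]
      have h1 := Cfsg.Agent.H686.CharKit.charDegree_irr χ
      rw [← h1]
      have h2 : charDegree (χ : G → ℂ) = m := by omega
      rw [h2]
      ring
    · rw [hval (i + 1) (fun h1 => ?_), hε1]
      · simp
      · have h2 := Nat.le_of_dvd (Nat.succ_pos i) h1
        have h3 := Finset.mem_range.1 hi
        omega
  have h1 := apply_eq_zero χ hp hz hg hk h0
  have h2 := apply_eq_zero χ hp hz hg' hk' h0
  exact hgg ((h.uniq g h1).symm.trans (h.uniq g' h2))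

end Cfsg.Agent.H245.OZ
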