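import Cfsg.Agent.H161.G2Emb

/-!
# Centralizers of explicit elements of `G₂(q)` (octonion model, helper245, for S4842)

`K` a field, `G = Cfsg.Lie.G2 K`.

* `elt` : the element of `G` with a given matrix (multiplicativity checked on the basis);
* `map_o`, `map_tr`, `map_nm`, `map_bl`, `map_T` : invariants;
* `card_cent_le` : `|C(y)| ≤ N` by counting the possible images of a vector `e`;
* `not_conj` : non conjugacy.
-/

set_option autoImplicit false

namespace Cfsg.Agent.H245.OZ.Oc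

open Cfsg.Lie Cfsg.Agent.H161.Oct Matrix

variable {K : Type} [Field K]

/-- the matrix of an element -/
abbrev mt (g : Cfsg.Lie.G2 K) : Matrix (Fin 8) (Fin 8) K := ((g : GL (Fin 8) K) : Matrix (Fin 8) (Fin 8) K)

theorem mt_mul (g h : Cfsg.Lie.G2 K) : mt (g * h) = mt g * mt h := rfl

theorem mt_one : mt (1 : Cfsg.Lie.G2 K) = 1 := rfl

theorem mt_pow (g : Cfsg.Lie.G2 K) (n : ℕ) : mt (g ^ n) = mt g ^ n := by
  induction n with
  | zero => rw [pow_zero, pow_zero, mt_one]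
  | succ n ih => rw [pow_succ, pow_succ, mt_mul, ih]

theorem mt_inj {g h : Cfsg.Lie.G2 K} (e : mt g = mt h) : g = h := Subtype.ext (Units.ext e)

theorem map_mul (g : Cfsg.Lie.G2 K) (x y : V K) : mt g *ᵥ zornMul x y = zornMul (mt g *ᵥ x) (mt g *ᵥ y) := g.2 x y

theorem map_o (g : Cfsg.Lie.G2 K) : mt g *ᵥ (o : V K) = o :=
  Cfsg.Agent.H161.Oct.map_o (f := toE K g.1) (toE_mem.2 g.2)

theorem map_tr (g : Cfsg.Lie.G2 K) (x : V K) : tr (mt g *ᵥ x) = tr x :=
  Cfsg.Agent.H161.Oct.map_tr (f := toE K g.1) (toE_mem.2 g.2) x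

theorem map_nm (g : Cfsg.Lie.G2 K) (x : V K) : nm (mt g *ᵥ x) = nm x :=
  Cfsg.Agent.H161.Oct.map_nm (f := toE K g.1) (toE_mem.2 g.2) x

theorem map_bl (g : Cfsg.Lie.G2 K) (x y : V K) : bl (mt g *ᵥ x) (mt g *ᵥ y) = bl x y :=
  Cfsg.Agent.H161.Oct.map_bl (f := toE K g.1) (toE_mem.2 g.2) x y

/-- the element with a given matrix -/
def elt (M N : Matrix (Fin 8) (Fin 8) K) (h1 : M * N = 1) (h2 : N * M = 1)
    (hz : ∀ i j : Fin 8, M *ᵥ zornMul (Pi.single i 1) (Pi.single j 1) =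
      zornMul (M *ᵥ Pi.single i 1) (M *ᵥ Pi.single j 1)) : Cfsg.Lie.G2 K :=
  ⟨⟨M, N, h1, h2⟩, by
    intro x y
    have hx : x = ∑ i, x i • (Pi.single i 1 : V K) := by
      ext j
      simp [Finset.sum_apply, Pi.single_apply]
    have hy : y = ∑ i, y i • (Pi.single i 1 : V K) := by
      ext j
      simp [Finset.sum_apply, Pi.single_apply]
    have h3 : ∀ u v : V K, zornMul u v = zL K u v := fun _ _ => rfl
    change M *ᵥ zornMul x y = zornMul (M *ᵥ x) (M *ᵥ y)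
    rw [hx, hy]
    simp only [h3, map_sum, map_smul, LinearMap.sum_apply, LinearMap.smul_apply, Matrix.mulVec_sum, Matrix.mulVec_smul]
    refine Finset.sum_congr rfl fun j _ => ?_
    congr 1
    refine Finset.sum_congr rfl fun i _ => ?_
    congr 1
    exact hz i j⟩

theorem mt_elt (M N : Matrix (Fin 8) (Fin 8) K) (h1 : M * N = 1) (h2 : N * M = 1)
    (hz : ∀ i j : Fin 8, M *ᵥ zornMul (Pi.single i 1) (Pi.single j 1) =
      zornMul (M *ᵥ Pi.single i 1) (M *ᵥ Pi.single j 1)) : mt (elt M N h1 h2 hz) = M := rfl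

/-- all basis vectors are fixed -/
theorem eq_one_of_single {g : Cfsg.Lie.G2 K} (h : ∀ j : Fin 8, mt g *ᵥ (Pi.single j 1 : V K) = Pi.single j 1) : g = 1 := by
  apply mt_inj
  rw [mt_one]
  ext i j
  have h1 := congrFun (h j) i
  rw [Matrix.mulVec_single_one] at h1
  change mt g i j = _ at h1
  rw [h1, Matrix.one_apply, Pi.single_apply]

theorem fix_mul {g : Cfsg.Lie.G2 K} {u v : V K} (hu : mt g *ᵥ u = u) (hv : mt g *ᵥ v = v) :
    mt g *ᵥ zornMul u v = zornMul u v := by rw [map_mul, hu, hv]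

/-- commuting matrices -/
theorem mt_comm {g y : Cfsg.Lie.G2 K} (h : g * y = y * g) : Commute (mt g) (mt y) := by
  have := congrArg mt h
  exact this

variable [Finite K]

/-- **The order of a centralizer**: the elements commuting with `y` are determined by the image of `e`. -/
theorem card_cent_le {y : Cfsg.Lie.G2 K} (e : V K) {P : Type} [Fintype P] (f : P → V K)
    (hS : ∀ g : Cfsg.Lie.G2 K, g * y = y * g → ∃ p, f p = mt g *ᵥ e)
    (hinj : ∀ g : Cfsg.Lie.G2 K, g * y = y * g → mt g *ᵥ e = e → g = 1) {N : ℕ} (hN : Fintype.card P ≤ N) :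
    Nat.card (Subgroup.centralizer ({y} : Set (Cfsg.Lie.G2 K))) ≤ N := by
  classical
  have hc : ∀ g : Subgroup.centralizer ({y} : Set (Cfsg.Lie.G2 K)), (g : Cfsg.Lie.G2 K) * y = y * g := fun g =>
    Subgroup.mem_centralizer_singleton_iff.1 g.2
  choose F hF using fun g : Subgroup.centralizer ({y} : Set (Cfsg.Lie.G2 K)) => hS g (hc g)
  have hFi : Function.Injective F := by
    intro g h e1
    have e2 : mt (g : Cfsg.Lie.G2 K) *ᵥ e = mt (h : Cfsg.Lie.G2 K) *ᵥ e := by rw [← hF, ← hF, e1]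
    have e3 : mt ((h : Cfsg.Lie.G2 K)⁻¹ * (g : Cfsg.Lie.G2 K)) *ᵥ e = e := by
      rw [mt_mul, ← Matrix.mulVec_mulVec, e2, Matrix.mulVec_mulVec, ← mt_mul, inv_mul_cancel, mt_one, Matrix.one_mulVec]
    have e5 : ((h : Cfsg.Lie.G2 K)⁻¹ * (g : Cfsg.Lie.G2 K)) * y = y * ((h : Cfsg.Lie.G2 K)⁻¹ * (g : Cfsg.Lie.G2 K)) := by
      have e6 : (h : Cfsg.Lie.G2 K)⁻¹ * y = y * (h : Cfsg.Lie.G2 K)⁻¹ := by
        rw [inv_mul_eq_iff_eq_mul, ← mul_assoc, hc h, mul_assoc, mul_inv_cancel, mul_one]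
      rw [mul_assoc, hc g, ← mul_assoc, e6, mul_assoc]
    have e4 := hinj _ e5 e3
    exact Subtype.ext (inv_mul_eq_one.1 e4).symm
  refine (Nat.card_le_card_of_injective F hFi).trans ?_
  rwa [Nat.card_eq_fintype_card]

end Cfsg.Agent.H245.OZ.Oc
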