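import Cfsg.Agent.ClassicalGeometry.SympInvolutions
import Cfsg.Prelude.Def_Classical

/-!
# Elements of `PSp₄(5)` (helper245, for S4842)

* an element `z` of order 13, `|C(z)| ≤ 13`, and `g` of order 4 with `g z g⁻¹ = z ^ 5`;
* an element `y` of order 5, conjugate to its inverse, `|C(y)| ≤ 25`.
-/

set_option autoImplicit false

namespace Cfsg.Agent.H245.OZ.SpFive

open Matrix Subgroup

/-- the symplectic group -/
abbrev Sp := symplecticGroup (Fin 2) (ZMod 5)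

instance factFiveSp : Fact (Nat.Prime 5) := ⟨Nat.prime_five⟩

/-- a block matrix from a list of rows -/
def mat (a b c d e f g h i j k l m n o p : ZMod 5) : Matrix (Fin 2 ⊕ Fin 2) (Fin 2 ⊕ Fin 2) (ZMod 5) :=
  fromBlocks !![a, b; e, f] !![c, d; g, h] !![i, j; m, n] !![k, l; o, p]

/-- order 13 -/
def zM := mat 3 2 4 0 3 0 0 1 1 0 0 0 0 4 0 0
/-- acting on `⟨z⟩` -/
def gM := mat 0 0 3 2 0 0 1 3 1 3 2 2 1 1 0 3
/-- regular unipotent -/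
def yM := mat 2 3 4 0 0 1 0 0 1 0 0 0 2 4 0 1
/-- inverting `y` -/
def bM := mat 0 0 2 0 0 2 0 0 2 0 0 0 0 0 0 3

theorem z_mem : zM * J (Fin 2) (ZMod 5) * zMᵀ = J (Fin 2) (ZMod 5) := by decide +kernel
theorem g_mem : gM * J (Fin 2) (ZMod 5) * gMᵀ = J (Fin 2) (ZMod 5) := by decide +kernel
theorem y_mem : yM * J (Fin 2) (ZMod 5) * yMᵀ = J (Fin 2) (ZMod 5) := by decide +kernel
theorem b_mem : bM * J (Fin 2) (ZMod 5) * bMᵀ = J (Fin 2) (ZMod 5) := by decide +kernel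

theorem z13 : zM ^ 13 = 1 := by decide +kernel
theorem y5 : yM ^ 5 = 1 := by decide +kernel
theorem g4 : gM ^ 4 = -1 := by decide +kernel
theorem gz : gM * zM = zM ^ 5 * gM := by decide +kernel
theorem by' : bM * yM = yM ^ 4 * bM := by decide +kernel

theorem z1 : zM * yM ≠ yM * zM := by decide +kernel
theorem g2 : gM ^ 2 * yM ≠ yM * gM ^ 2 := by decide +kernel

/-! ### the projective group -/

/-- the projection -/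
abbrev pr (a : Sp) : Cfsg.PSp 2 (ZMod 5) := QuotientGroup.mk a

theorem pr_eq {a b : Sp} (h : pr a = pr b) :
    (b : Matrix (Fin 2 ⊕ Fin 2) (Fin 2 ⊕ Fin 2) (ZMod 5)) = a ∨
      (b : Matrix (Fin 2 ⊕ Fin 2) (Fin 2 ⊕ Fin 2) (ZMod 5)) = -a := by
  have h1 : a⁻¹ * b ∈ Subgroup.center Sp := QuotientGroup.eq.1 h
  have h2 : b = a * (a⁻¹ * b) := by group
  rcases ClassicalGeometry.SympInvolutions.center_eq h1 with h3 | h3
  · left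
    rw [h2, Submonoid.coe_mul, h3, mul_one]
  · right
    rw [h2, Submonoid.coe_mul, h3, mul_neg, mul_one]

theorem pr_comm {a b : Sp} (h : pr a * pr b = pr b * pr a) {n : ℕ} (hn : Odd n) (ha : a ^ n = 1) :
    (b : Matrix (Fin 2 ⊕ Fin 2) (Fin 2 ⊕ Fin 2) (ZMod 5)) * a = a * b := by
  have h1 : pr (a * b) = pr (b * a) := h
  rcases pr_eq h1 with h2 | h2
  · exact h2
  · exfalso
    -- `b a b⁻¹ = - a`
    obtain ⟨c, hc⟩ : ∃ c : Sp, (c : Matrix (Fin 2 ⊕ Fin 2) (Fin 2 ⊕ Fin 2) (ZMod 5)) = -1 :=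
      ⟨⟨-1, SymplecticGroup.mem_iff.2 (by simp)⟩, rfl⟩
    have h3 : b * a * b⁻¹ = c * a := by
      rw [mul_inv_eq_iff_eq_mul]
      apply Subtype.ext
      rw [Submonoid.coe_mul, Submonoid.coe_mul, Submonoid.coe_mul, hc, neg_one_mul, neg_mul]
      exact h2
    have hca : Commute c a := by
      apply Subtype.ext
      change (c : Matrix (Fin 2 ⊕ Fin 2) (Fin 2 ⊕ Fin 2) (ZMod 5)) * a = a * c
      rw [hc]
      simp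
    have h4 := congrArg (fun t : Sp => t ^ n) h3
    simp only [conj_pow, hca.mul_pow, ha, mul_one, mul_inv_cancel] at h4
    have h5 := congrArg (fun t : Sp => (t : Matrix (Fin 2 ⊕ Fin 2) (Fin 2 ⊕ Fin 2) (ZMod 5))) h4
    simp only [SubmonoidClass.coe_pow, OneMemClass.coe_one, hc, hn.neg_one_pow] at h5
    have h6 := congrFun (congrFun h5 (Sum.inl 0)) (Sum.inl 0)
    rw [Matrix.neg_apply, Matrix.one_apply_eq] at h6
    exact absurd h6 (by decide)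

/-- **The order of a centralizer**: `e` a cyclic vector. -/
theorem cent_le {a : Sp} {n : ℕ} (hn : Odd n) (ha : a ^ n = 1) (e : Fin 2 ⊕ Fin 2 → ZMod 5)
    (c : (Fin 2 ⊕ Fin 2) → Fin 4 → ZMod 5)
    (hc : ∀ j, (∑ i : Fin 4, c j i • (a : Matrix (Fin 2 ⊕ Fin 2) (Fin 2 ⊕ Fin 2) (ZMod 5)) ^ (i : ℕ)) *ᵥ e = Pi.single j 1)
    {N : ℕ} (hN : Fintype.card {w : Fin 2 ⊕ Fin 2 → ZMod 5 //
      w ⬝ᵥ ((J (Fin 2) (ZMod 5) * (a : Matrix (Fin 2 ⊕ Fin 2) (Fin 2 ⊕ Fin 2) (ZMod 5))) *ᵥ w) =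
        e ⬝ᵥ ((J (Fin 2) (ZMod 5) * (a : Matrix (Fin 2 ⊕ Fin 2) (Fin 2 ⊕ Fin 2) (ZMod 5))) *ᵥ e) ∧
      w ⬝ᵥ ((J (Fin 2) (ZMod 5) * (a : Matrix (Fin 2 ⊕ Fin 2) (Fin 2 ⊕ Fin 2) (ZMod 5)) ^ 2) *ᵥ w) =
        e ⬝ᵥ ((J (Fin 2) (ZMod 5) * (a : Matrix (Fin 2 ⊕ Fin 2) (Fin 2 ⊕ Fin 2) (ZMod 5)) ^ 2) *ᵥ e)} ≤ 2 * N) :
    Nat.card (centralizer ({pr a} : Set (Cfsg.PSp 2 (ZMod 5)))) ≤ N := by
  classical
  -- representatives
  have hrep : ∀ x : centralizer ({pr a} : Set (Cfsg.PSp 2 (ZMod 5))), ∃ b : Sp, pr b = x ∧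
      (b : Matrix (Fin 2 ⊕ Fin 2) (Fin 2 ⊕ Fin 2) (ZMod 5)) * a = a * b := by
    intro x
    obtain ⟨b, hb⟩ := QuotientGroup.mk_surjective (x : Cfsg.PSp 2 (ZMod 5))
    refine ⟨b, hb, pr_comm ?_ hn ha⟩
    have h1 := mem_centralizer_singleton_iff.1 x.2
    rw [← hb] at h1
    exact h1.symm
  choose B hB hBa using hrep
  -- commuting matrices are determined by the image of `e`
  have hinj : ∀ b b' : Matrix (Fin 2 ⊕ Fin 2) (Fin 2 ⊕ Fin 2) (ZMod 5), Commute b a → Commute b' a →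
      b *ᵥ e = b' *ᵥ e → b = b' := by
    intro b b' hb hb' hbb
    have key : ∀ d : Matrix (Fin 2 ⊕ Fin 2) (Fin 2 ⊕ Fin 2) (ZMod 5), Commute d a → ∀ j,
        d *ᵥ Pi.single j 1 = (∑ i : Fin 4, c j i • (a : Matrix (Fin 2 ⊕ Fin 2) (Fin 2 ⊕ Fin 2) (ZMod 5)) ^ (i : ℕ)) *ᵥ
          (d *ᵥ e) := by
      intro d hd j
      have hd' : Commute d (∑ i : Fin 4, c j i • (a : Matrix (Fin 2 ⊕ Fin 2) (Fin 2 ⊕ Fin 2) (ZMod 5)) ^ (i : ℕ)) :=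
        Commute.sum_right _ _ _ fun i _ => (hd.pow_right _).smul_right _
      rw [← hc j, Matrix.mulVec_mulVec, Matrix.mulVec_mulVec, hd'.eq]
    ext i j
    have h1 := congrFun ((key b hb j).trans ((congrArg _ hbb).trans (key b' hb' j).symm)) i
    rw [Matrix.mulVec_single_one, Matrix.mulVec_single_one] at h1
    exact h1
  have hcond : ∀ (b : Sp) (k : ℕ), Commute (b : Matrix (Fin 2 ⊕ Fin 2) (Fin 2 ⊕ Fin 2) (ZMod 5)) a →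
      ((b : Matrix (Fin 2 ⊕ Fin 2) (Fin 2 ⊕ Fin 2) (ZMod 5)) *ᵥ e) ⬝ᵥ
        ((J (Fin 2) (ZMod 5) * (a : Matrix (Fin 2 ⊕ Fin 2) (Fin 2 ⊕ Fin 2) (ZMod 5)) ^ k) *ᵥ
          ((b : Matrix (Fin 2 ⊕ Fin 2) (Fin 2 ⊕ Fin 2) (ZMod 5)) *ᵥ e)) =
        e ⬝ᵥ ((J (Fin 2) (ZMod 5) * (a : Matrix (Fin 2 ⊕ Fin 2) (Fin 2 ⊕ Fin 2) (ZMod 5)) ^ k) *ᵥ e) := by
    intro b k hb
    have h1 : (b : Matrix (Fin 2 ⊕ Fin 2) (Fin 2 ⊕ Fin 2) (ZMod 5))ᵀ * J (Fin 2) (ZMod 5) * b = J (Fin 2) (ZMod 5) :=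
      SymplecticGroup.mem_iff'.1 b.2
    have h2 : (b : Matrix (Fin 2 ⊕ Fin 2) (Fin 2 ⊕ Fin 2) (ZMod 5))ᵀ *
        (J (Fin 2) (ZMod 5) * (a : Matrix (Fin 2 ⊕ Fin 2) (Fin 2 ⊕ Fin 2) (ZMod 5)) ^ k) * b =
        J (Fin 2) (ZMod 5) * (a : Matrix (Fin 2 ⊕ Fin 2) (Fin 2 ⊕ Fin 2) (ZMod 5)) ^ k := by
      rw [mul_assoc, mul_assoc, ← (hb.pow_right k).eq, ← mul_assoc, ← mul_assoc, h1]
    conv_rhs => rw [← h2, ← Matrix.mulVec_mulVec, ← Matrix.mulVec_mulVec, Matrix.dotProduct_mulVec,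
      Matrix.vecMul_transpose]
  -- the signs
  obtain ⟨s, hs⟩ : ∃ s : Bool → Sp, ∀ t, (s t : Matrix (Fin 2 ⊕ Fin 2) (Fin 2 ⊕ Fin 2) (ZMod 5)) =
      if t then 1 else -1 := by
    refine ⟨fun t => if t then 1 else ⟨-1, SymplecticGroup.mem_iff.2 (by simp)⟩, fun t => ?_⟩
    cases t <;> simp
  have hsB : ∀ t x, Commute ((s t * B x : Sp) : Matrix (Fin 2 ⊕ Fin 2) (Fin 2 ⊕ Fin 2) (ZMod 5)) a := by
    intro t x
    have h1 : Commute (B x : Matrix (Fin 2 ⊕ Fin 2) (Fin 2 ⊕ Fin 2) (ZMod 5)) a := hBa x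
    rw [Submonoid.coe_mul, hs]
    cases t
    · simpa using h1.neg_left
    · simpa using h1
  have h1 : ∀ z : centralizer ({pr a} : Set (Cfsg.PSp 2 (ZMod 5))) × Bool, _ := fun z =>
    And.intro (by simpa only [pow_one] using hcond _ 1 (hsB z.2 z.1)) (hcond _ 2 (hsB z.2 z.1))
  have h2 := Nat.card_le_card_of_injective (β := {w : Fin 2 ⊕ Fin 2 → ZMod 5 //
      w ⬝ᵥ ((J (Fin 2) (ZMod 5) * (a : Matrix (Fin 2 ⊕ Fin 2) (Fin 2 ⊕ Fin 2) (ZMod 5))) *ᵥ w) =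
        e ⬝ᵥ ((J (Fin 2) (ZMod 5) * (a : Matrix (Fin 2 ⊕ Fin 2) (Fin 2 ⊕ Fin 2) (ZMod 5))) *ᵥ e) ∧
      w ⬝ᵥ ((J (Fin 2) (ZMod 5) * (a : Matrix (Fin 2 ⊕ Fin 2) (Fin 2 ⊕ Fin 2) (ZMod 5)) ^ 2) *ᵥ w) =
        e ⬝ᵥ ((J (Fin 2) (ZMod 5) * (a : Matrix (Fin 2 ⊕ Fin 2) (Fin 2 ⊕ Fin 2) (ZMod 5)) ^ 2) *ᵥ e)})
    (fun z : centralizer ({pr a} : Set (Cfsg.PSp 2 (ZMod 5))) × Bool =>
    ⟨((s z.2 * B z.1 : Sp) : Matrix (Fin 2 ⊕ Fin 2) (Fin 2 ⊕ Fin 2) (ZMod 5)) *ᵥ e, h1 z⟩) ?_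
  · rw [Nat.card_prod, Nat.card_eq_fintype_card (α := Bool), Fintype.card_bool, Nat.card_eq_fintype_card
      (α := {w : Fin 2 ⊕ Fin 2 → ZMod 5 // _})] at h2
    have h3 := h2.trans hN
    omega
  · intro z z' hzz
    have h3 : s z.2 * B z.1 = s z'.2 * B z'.1 :=
      Subtype.ext (hinj _ _ (hsB _ _) (hsB _ _) (congrArg Subtype.val hzz))
    have hsc : ∀ t, pr (s t) = 1 := by
      intro t
      rw [QuotientGroup.eq_one_iff, Subgroup.mem_center_iff]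
      intro g
      apply Subtype.ext
      rw [Submonoid.coe_mul, Submonoid.coe_mul, hs]
      cases t <;> simp
    have h4 : (z.1 : Cfsg.PSp 2 (ZMod 5)) = z'.1 := by
      have h5 : pr (s z.2) * pr (B z.1) = pr (s z'.2) * pr (B z'.1) := congrArg pr h3
      rw [hsc, hsc, one_mul, one_mul] at h5
      rw [← hB, ← hB]
      exact h5
    have h5 : z.1 = z'.1 := Subtype.ext h4
    rw [h5, mul_left_inj] at h3
    refine Prod.ext h5 ?_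
    generalize z.2 = t at h3 ⊢
    generalize z'.2 = t' at h3 ⊢
    have h6 : (s t : Matrix (Fin 2 ⊕ Fin 2) (Fin 2 ⊕ Fin 2) (ZMod 5)) (Sum.inl 0) (Sum.inl 0) =
      (s t' : Matrix (Fin 2 ⊕ Fin 2) (Fin 2 ⊕ Fin 2) (ZMod 5)) (Sum.inl 0) (Sum.inl 0) := by rw [h3]
    rw [hs, hs] at h6
    cases t <;> cases t'
    · rfl
    · exact absurd h6 (by decide)
    · exact absurd h6 (by decide)
    · rfl

/-! ### the elements -/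

/-- order 13 -/
def z : Sp := ⟨zM, SymplecticGroup.mem_iff.2 z_mem⟩
/-- acting on `⟨z⟩` -/
def g : Sp := ⟨gM, SymplecticGroup.mem_iff.2 g_mem⟩
/-- regular unipotent -/
def y : Sp := ⟨yM, SymplecticGroup.mem_iff.2 y_mem⟩
/-- inverting `y` -/
def b : Sp := ⟨bM, SymplecticGroup.mem_iff.2 b_mem⟩

theorem ez : ∀ j, (∑ i : Fin 4, (Sum.elim ![![1, 0, 0, 0], ![0, 0, 1, 3]] ![![2, 1, 2, 1], ![0, 1, 3, 0]] : Fin 2 ⊕ Fin 2 → Fin 4 → ZMod 5) j i • zM ^ (i : ℕ)) *ᵥ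
    Sum.elim ![1, 0] ![0, 0] = Pi.single j 1 := by decide +kernel

theorem ey : ∀ j, (∑ i : Fin 4, (Sum.elim ![![1, 3, 4, 2], ![1, 0, 0, 0]] ![![3, 2, 4, 1], ![4, 3, 2, 1]] : Fin 2 ⊕ Fin 2 → Fin 4 → ZMod 5) j i • yM ^ (i : ℕ)) *ᵥ
    Sum.elim ![0, 1] ![0, 0] = Pi.single j 1 := by decide +kernel

theorem nz : Fintype.card {w : Fin 2 ⊕ Fin 2 → ZMod 5 //
      w ⬝ᵥ ((J (Fin 2) (ZMod 5) * zM) *ᵥ w) =
        (Sum.elim ![1, 0] ![0, 0] : Fin 2 ⊕ Fin 2 → ZMod 5) ⬝ᵥ ((J (Fin 2) (ZMod 5) * zM) *ᵥ Sum.elim ![1, 0] ![0, 0]) ∧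
      w ⬝ᵥ ((J (Fin 2) (ZMod 5) * zM ^ 2) *ᵥ w) =
        (Sum.elim ![1, 0] ![0, 0] : Fin 2 ⊕ Fin 2 → ZMod 5) ⬝ᵥ
          ((J (Fin 2) (ZMod 5) * zM ^ 2) *ᵥ Sum.elim ![1, 0] ![0, 0])} ≤ 2 * 13 := by
  decide +kernel

theorem ny : Fintype.card {w : Fin 2 ⊕ Fin 2 → ZMod 5 //
      w ⬝ᵥ ((J (Fin 2) (ZMod 5) * yM) *ᵥ w) =
        (Sum.elim ![0, 1] ![0, 0] : Fin 2 ⊕ Fin 2 → ZMod 5) ⬝ᵥ ((J (Fin 2) (ZMod 5) * yM) *ᵥ Sum.elim ![0, 1] ![0, 0]) ∧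
      w ⬝ᵥ ((J (Fin 2) (ZMod 5) * yM ^ 2) *ᵥ w) =
        (Sum.elim ![0, 1] ![0, 0] : Fin 2 ⊕ Fin 2 → ZMod 5) ⬝ᵥ
          ((J (Fin 2) (ZMod 5) * yM ^ 2) *ᵥ Sum.elim ![0, 1] ![0, 0])} ≤ 2 * 25 := by
  decide +kernel

theorem pr_pow (a : Sp) (n : ℕ) : pr a ^ n = pr (a ^ n) := rfl

theorem z_pow : z ^ 13 = 1 := Subtype.ext z13
theorem y_pow : y ^ 5 = 1 := Subtype.ext y5

theorem pr_z_ne : pr z ≠ 1 := by
  intro h
  rw [QuotientGroup.eq_one_iff] at h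
  exact z1 (congrArg Subtype.val (Subgroup.mem_center_iff.1 h y)).symm

theorem pr_y_ne : pr y ≠ 1 := by
  intro h
  rw [QuotientGroup.eq_one_iff] at h
  exact z1 (congrArg Subtype.val (Subgroup.mem_center_iff.1 h z))

theorem pr_g_ne : pr g ^ 2 ≠ 1 := by
  intro h
  rw [pr_pow, QuotientGroup.eq_one_iff] at h
  exact g2 (congrArg Subtype.val (Subgroup.mem_center_iff.1 h y)).symm

theorem pr_g_pow : pr g ^ 4 = 1 := by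
  rw [pr_pow, QuotientGroup.eq_one_iff, Subgroup.mem_center_iff]
  intro t
  apply Subtype.ext
  rw [Submonoid.coe_mul, Submonoid.coe_mul, SubmonoidClass.coe_pow,
    show (g : Matrix (Fin 2 ⊕ Fin 2) (Fin 2 ⊕ Fin 2) (ZMod 5)) ^ 4 = -1 from g4]
  simp

theorem orderOf_z : orderOf (pr z) = 13 :=
  haveI : Fact (Nat.Prime 13) := ⟨by norm_num⟩
  orderOf_eq_prime (by rw [pr_pow, z_pow]; rfl) pr_z_ne

theorem orderOf_y : orderOf (pr y) = 5 :=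
  orderOf_eq_prime (by rw [pr_pow, y_pow]; rfl) pr_y_ne

theorem orderOf_g : orderOf (pr g) = 4 :=
  orderOf_eq_prime_pow (p := 2) (n := 1) (by simpa using pr_g_ne) (by simpa using pr_g_pow)

theorem orderOf_g2 : orderOf (pr g ^ 2) = 2 :=
  orderOf_eq_prime (by rw [← pow_mul]; exact pr_g_pow) pr_g_ne

theorem conj_z : pr g * pr z * (pr g)⁻¹ = pr z ^ 5 := by
  rw [mul_inv_eq_iff_eq_mul, pr_pow]
  exact congrArg pr (Subtype.ext (a1 := g * z) (a2 := z ^ 5 * g) gz)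

theorem conj_z2 : pr g ^ 2 * pr z * (pr g ^ 2)⁻¹ = pr z ^ 25 := by
  rw [pow_two, _root_.mul_inv_rev]
  calc pr g * pr g * pr z * ((pr g)⁻¹ * (pr g)⁻¹) = pr g * (pr g * pr z * (pr g)⁻¹) * (pr g)⁻¹ := by group
    _ = pr g * pr z ^ 5 * (pr g)⁻¹ := by rw [conj_z]
    _ = (pr g * pr z * (pr g)⁻¹) ^ 5 := conj_pow.symm
    _ = pr z ^ 25 := by rw [conj_z, ← pow_mul]

theorem conj_y : IsConj (pr y) (pr y ^ 4) := by
  refine isConj_iff.2 ⟨pr b, ?_⟩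
  rw [mul_inv_eq_iff_eq_mul, pr_pow]
  exact congrArg pr (Subtype.ext (a1 := b * y) (a2 := y ^ 4 * b) by')

theorem cent_z : Nat.card (centralizer ({pr z} : Set (Cfsg.PSp 2 (ZMod 5)))) ≤ 13 :=
  cent_le (n := 13) (by decide) z_pow _ _ ez nz

theorem cent_y : Nat.card (centralizer ({pr y} : Set (Cfsg.PSp 2 (ZMod 5)))) ≤ 25 :=
  cent_le (n := 5) (by decide) y_pow _ _ ey ny

end Cfsg.Agent.H245.OZ.SpFive
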