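import Cfsg.Agent.H245.OZ.SpFive
import Cfsg.Agent.H245.OZ.Norm
import Cfsg.Agent.H672.OZ.Sieve
import Cfsg.Agent.H849.OZ.Bad
import Cfsg.Agent.H730.OZ.Asm
import Cfsg.Agent.LieClassical.FieldTransfer
import Cfsg.Agent.S0245
import Cfsg.Agent.S0246

/-!
# S4842: `PSp₄(5)` (helper245)

`|G| = 2⁶ 3² 5⁴ 13`, `c = |C(x)| ≥ 4`, `d = χ(1)`. The prime 13 is isolated: `d = ± 1` modulo 13. If `5 ∣ d`, the two
Galois conjugate classes of regular unipotent elements (`|C(y)| = 25`) give `8 c ≤ 25`. The only degree prime to 5 left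
is `12 = 13 - 1`; but a character of degree 12 vanishes at the elements of order 4 and 2 normalising `⟨z⟩`, `z` of
order 13.
-/

set_option autoImplicit false
set_option maxRecDepth 100000

open Cfsg Cfsg.Agent.Characters Cfsg.Agent.H732.VZ Cfsg.Agent.H604.OZ

namespace Cfsg.Agent.H245.OZ

open SpFive

universe u

theorem card_sp5 : Nat.card (PSp 2 (ZMod 5)) = 4680000 := by
  have h1 := S0245.result (F := ZMod 5) (q := 5) (ZMod.card 5) 2
  have h2 := S0246.result (F := ZMod 5) (q := 5) (ZMod.card 5) 2 (by norm_num)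
  have h3 := Subgroup.card_eq_card_quotient_mul_card_subgroup
    (Subgroup.center (Matrix.symplecticGroup (Fin 2) (ZMod 5)))
  rw [h1, h2, Finset.prod_range_succ, Finset.prod_range_succ, Finset.prod_range_zero] at h3
  norm_num at h3
  change 9360000 = Nat.card (PSp 2 (ZMod 5)) * 2 at h3
  omega

/-- the row from the class facts -/
theorem row_of_facts {G : Type u} [Group G] [Finite G] [IsSimpleGroup G] (hN : Nat.card G = 4680000) {z g y : G}
    (hz : orderOf z = 13) (hCz : Nat.card (Subgroup.centralizer ({z} : Set G)) ≤ 13) (hg : orderOf g = 4)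
    (hg2 : orderOf (g ^ 2) = 2) (hgz : g * z * g⁻¹ = z ^ 5) (hgz2 : g ^ 2 * z * (g ^ 2)⁻¹ = z ^ 25)
    (hy : orderOf y = 5) (hCy : Nat.card (Subgroup.centralizer ({y} : Set G)) ≤ 25) (hy4 : IsConj y (y ^ 4)) :
    H730.OZ.Row G := by
  refine row_of fun χ x h => ?_
  have h4 : 4 ≤ cent x := four_le_cent h (by rw [hN]; norm_num) (by rw [hN]; norm_num)
  have hiso : ∀ r ∈ [13], charDegree (χ : G → ℂ) % r = 0 ∨
      charDegree (χ : G → ℂ) % r = 1 ∨ charDegree (χ : G → ℂ) % r = r - 1 := by
    intro r hr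
    rw [List.mem_singleton] at hr
    subst hr
    exact H672.OZ.iso_mod_of h (by norm_num) (by norm_num) (by rw [hN]; norm_num) (by rw [hN]; norm_num)
      hz hCz h4
  have hm := H672.OZ.mem_of_sieve4 h hN (l := [(2,6),(3,2),(5,4),(13,1)]) (by decide +kernel)
    (by
      intro x hx
      simp only [List.mem_cons, List.not_mem_nil, or_false] at hx
      rcases hx with rfl | rfl | rfl | rfl <;> norm_num)
    (by decide +kernel) h4 hiso (D := [12, 25, 40, 300, 480, 1000]) (by decide +kernel)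
  -- the multiples of 5
  have key5 : 5 ∣ charDegree (χ : G → ℂ) → (cent x ≤ 9) → False := by
    intro h5 hc9
    have hxy : ¬ IsConj x y := by
      intro hxy
      have h6 : orderOf x = 5 := (orderOf_eq_of_conj hxy).trans hy
      have h7 : 5 ∣ cent x := h6 ▸ Subgroup.orderOf_dvd_natCard _ (H672.OZ.mem_cent.2 rfl)
      have h8 : cent x = 5 := by
        obtain ⟨k, hk⟩ := h7
        omega
      refine cent_prime (ne_one h) (by rw [h8]; norm_num) ?_
      rw [h8, hN]
      norm_num
    have hcop : ∀ m : ℕ, m.Coprime (Nat.card G) → ¬ 5 ∣ m := by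
      intro m hm h6
      have h7 : 5 ∣ Nat.card G := by rw [hN]; norm_num
      exact absurd (Nat.dvd_gcd h6 h7) (by rw [hm]; norm_num)
    have hmod : ∀ m : ℕ, y ^ m = y ^ (m % 5) := fun m => by
      rw [← hy, pow_mod_orderOf]
    have h1or : ∀ m : ℕ, m.Coprime (Nat.card G) → IsConj (y ^ m) y ∨
        IsConj (y ^ m) (y ^ 7) := by
      intro m hm
      have h6 := hcop m hm
      have h7 : m % 5 = 1 ∨ m % 5 = 2 ∨ m % 5 = 3 ∨ m % 5 = 4 := by omega
      rw [hmod m, hmod 7]
      rcases h7 with h7 | h7 | h7 | h7 <;> rw [h7]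
      · left; rw [pow_one]
      · right; rfl
      · right
        have h8 := H849.OZ.isConj_pow hy4 2
        rw [← pow_mul, hmod 8] at h8
        exact h8.symm
      · left; exact hy4.symm
    by_cases hyy : IsConj y (y ^ 7)
    · have h6 := H849.OZ.one_orb h (T := {1}) (y := y) (H849.OZ.galOrb_one fun m hm =>
        (h1or m hm).elim id fun h7 => h7.trans hyy.symm) (r := 5) (by norm_num) h5 ⟨1, by rw [hy, pow_one]⟩
        hxy (b := 25) (by norm_num) (by norm_num)
      have h7 : (cent y : ℝ) ≤ 25 := by exact_mod_cast hCy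
      have h8 : (4 : ℝ) ≤ cent x := by exact_mod_cast h4
      rw [Finset.card_singleton] at h6
      norm_num at h6
      linarith
    · have h6 := H849.OZ.one_orb h (T := {1, 7}) (y := y) (H849.OZ.galOrb_two (by rw [hN]; norm_num) hyy h1or)
        (r := 5) (by norm_num) h5 ⟨1, by rw [hy, pow_one]⟩ hxy (b := 5) (by norm_num) (by norm_num)
      have h7 : (cent y : ℝ) ≤ 25 := by exact_mod_cast hCy
      have h8 : (4 : ℝ) ≤ cent x := by exact_mod_cast h4
      rw [show (({1, 7} : Finset ℕ).card) = 2 from rfl] at h6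
      norm_num at h6
      linarith
  have h9 : ∀ d : ℕ, charDegree (χ : G → ℂ) = d → ¬ 9 ∣ d ^ 2 - 1 → cent x ≤ 9 := fun d hd h3 =>
    H672.OZ.cent_le_of h hN (r := 3) (n := 2) (by norm_num) hd (by norm_num) (by norm_num) h3
  simp only [List.mem_cons, List.not_mem_nil, or_false] at hm
  rcases hm with hd | hd | hd | hd | hd | hd
  · refine deg_ne (p := 13) (by norm_num) (by norm_num) (by rw [hN]; norm_num) (by rw [hN]; norm_num) hz
      (H672.OZ.card_cent_eq hz hCz) h h4 (g := g) (g' := g ^ 2) hgz (by decide) hgz2 (by decide) ?_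
      (by rw [hd])
    intro hc
    have := orderOf_eq_of_conj hc
    rw [hg, hg2] at this
    omega
  · exact key5 (by rw [hd]; norm_num) (h9 _ hd (by norm_num))
  · exact key5 (by rw [hd]; norm_num) (h9 _ hd (by norm_num))
  · exact key5 (by rw [hd]; norm_num) (h9 _ hd (by norm_num))
  · exact key5 (by rw [hd]; norm_num) (h9 _ hd (by norm_num))
  · refine key5 (by rw [hd]; norm_num) ?_
    have h10 := cent_mul_le h
    rw [hd, hN] at h10
    omega

/-- **`PSp₄(5)`.** -/
theorem row_psp45 {S : Type u} [Group S] [Finite S] (hs : IsSimpleGroup S) {F : Type} [Field F] [Fintype F]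
    (hF : Fintype.card F = 5) (e : S ≃* PSp 2 F) : H730.OZ.Row S := by
  let f : S ≃* PSp 2 (ZMod 5) := e.trans (Cfsg.Agent.LieClassical.FieldTransfer.pspCongr 2
    (FiniteField.ringEquivOfCardEq (K := F) (K' := ZMod 5) (by rw [hF, ZMod.card])))
  have : IsSimpleGroup (PSp 2 (ZMod 5)) := MulEquiv.isSimpleGroup f.symm
  have : Finite (PSp 2 (ZMod 5)) := Finite.of_equiv _ f.toEquiv
  exact H730.OZ.Row.congr f (row_of_facts card_sp5 orderOf_z cent_z orderOf_g orderOf_g2 conj_z conj_z2 orderOf_y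
    cent_y conj_y)

end Cfsg.Agent.H245.OZ
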